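import Mathlib
import Cfsg.Agent.H723.Kill
import Cfsg.Agent.H163.Steinberg
import Cfsg.Agent.FixBN.PslGood
import Cfsg.Agent.SmallSimple.PSLTwoPart

/-!
# S4983 for the groups `PSL(2, q)`, `q` odd
-/

set_option autoImplicit false

namespace Cfsg.Agent.H723.L2Odd

open Cfsg Cfsg.Agent.H723.Red Cfsg.Agent.H723.Kill

universe u

theorem not_oneZero {G : Type u} [Group G] [Finite G] [IsSimpleGroup G] {F : Type} [Field F]
    [Fintype F] {p : ℕ} [hp : Fact p.Prime] [CharP F p] (hp2 : p ≠ 2)
    (e : G ≃* Matrix.ProjectiveSpecialLinearGroup (Fin 2) F) : ¬ OneZero G := by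
  have hfin : Finite (Matrix.ProjectiveSpecialLinearGroup (Fin 2) F) := by
    unfold Matrix.ProjectiveSpecialLinearGroup
    infer_instance
  obtain ⟨f, hf⟩ : ∃ f : ℕ, Fintype.card F = p ^ f := by
    obtain ⟨n, h, h1⟩ := FiniteField.card F p
    exact ⟨n, h1⟩
  have hodd : Odd (Fintype.card F) := by
    rw [hf]
    exact (hp.out.odd_of_ne_two hp2).pow
  have hf0 : f ≠ 0 := by
    rintro rfl
    have := Fintype.one_lt_card (α := F)
    rw [hf, pow_zero] at this
    omega
  have hs : IsSimpleGroup (Matrix.ProjectiveSpecialLinearGroup (Fin 2) F) := by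
    have := e.symm.toEquiv.nontrivial
    exact IsSimpleGroup.isSimpleGroup_of_surjective e.toMonoidHom e.surjective
  have hcard := SmallSimple.PSLTwoPart.card_psl_two_odd hodd
  have h1 : ZS p (Matrix.ProjectiveSpecialLinearGroup (Fin 2) F) :=
    zs_of_steinberg (H163.Steinberg.exists_irr_of_hasSplit
      ((FixBN.PslGood.hasGoodSplit_psl (F := F) hp2 (n := 2) le_rfl).hasSplit))
  have h2 : ¬ OneZero (Matrix.ProjectiveSpecialLinearGroup (Fin 2) F) := by
    obtain ⟨r, hr⟩ := hodd
    have hsq : Fintype.card F ^ 2 - 1 = 2 * (2 * (r * (r + 1))) := by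
      rw [hr]
      have : (2 * r + 1) ^ 2 = 2 * (2 * (r * (r + 1))) + 1 := by ring
      omega
    have hG : Nat.card (Matrix.ProjectiveSpecialLinearGroup (Fin 2) F) =
        p ^ f * (2 * (r * (r + 1))) := by
      rw [← hf]
      have h3 : 2 * Nat.card (Matrix.ProjectiveSpecialLinearGroup (Fin 2) F) =
          2 * (Fintype.card F * (2 * (r * (r + 1)))) := by
        rw [hcard, hsq]; ring
      exact Nat.eq_of_mul_eq_mul_left (by norm_num) h3
    have hpq : p ∣ Fintype.card F := by rw [hf]; exact dvd_pow_self p hf0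
    have hq2 : 2 * (2 * (r * (r + 1))) + 1 = Fintype.card F * Fintype.card F := by
      rw [hr]; ring
    refine kill_card hp.out hp2 hG hf0 ?_ ?_ h1
    · intro hd
      have h4 : p ∣ 2 * (2 * (r * (r + 1))) + 1 := by
        rw [hq2]; exact hpq.mul_right _
      have h5 : p ∣ 1 := (Nat.dvd_add_right (hd.mul_left 2)).1 h4
      exact hp.out.one_lt.ne' (Nat.dvd_one.1 h5)
    · intro hd
      rw [← hf] at hd
      have h4 : Fintype.card F ∣ 2 * (2 * (r * (r + 1)) + 1) := hd.mul_left 2
      have h5 : 2 * (2 * (r * (r + 1)) + 1) = Fintype.card F * Fintype.card F + 1 := by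
        rw [← hq2]; ring
      rw [h5] at h4
      have h6 : Fintype.card F ∣ 1 := (Nat.dvd_add_right (Dvd.intro _ rfl)).1 h4
      exact (Fintype.one_lt_card (α := F)).ne' (Nat.dvd_one.1 h6)
  intro h
  exact h2 (h.comp_surjective e.toMonoidHom e.surjective)

end Cfsg.Agent.H723.L2Odd
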