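import Mathlib
import Cfsg.Agent.H723.L2Even
import Cfsg.Agent.H713.Engine
import Cfsg.Agent.S0157
import Cfsg.Agent.S0243

/-!
# The groups `PSL(3, q)`, `q` a power of two (helper723)

* `exists_irr` : the irreducible character `π - 1` of degree `q (q + 1)` (any field).
* `hasDZ` : `r`-defect zero characters for all primes `r` dividing `q + 1`, `q` even.
* `row_psl3_even` : the row of S4943 for `q ≥ 8`.
-/

set_option autoImplicit false

namespace Cfsg.Agent.H723.L3Even

open Cfsg MulAction Cfsg.Agent.H713 Cfsg.Agent.H665.NoPQ Matrix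
open scoped Pointwise LinearAlgebra.Projectivization

universe u v w

section two

variable {F : Type v} [Field F] [Fintype F]

instance instFinitePSL {n : ℕ} : Finite (ProjectiveSpecialLinearGroup (Fin n) F) := by
  unfold ProjectiveSpecialLinearGroup
  infer_instance

instance instFiniteProj {n : ℕ} : Finite (ℙ F (Fin n → F)) := by
  unfold Projectivization
  infer_instance

omit [Fintype F] in
theorem two_pre {n : ℕ} :
    IsMultiplyPretransitive (ProjectiveSpecialLinearGroup (Fin n) F) (ℙ F (Fin n → F)) 2 := by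
  have h : IsMultiplyPretransitive (SpecialLinearGroup (Fin n) F) (ℙ F (Fin n → F)) 2 := inferInstance
  constructor
  intro x y
  obtain ⟨g, hg⟩ := h.exists_smul_eq x y
  refine ⟨QuotientGroup.mk g, ?_⟩
  rw [← hg]
  ext i
  rfl

theorem card_proj : Nat.card (ℙ F (Fin 3 → F)) = Fintype.card F ^ 2 + Fintype.card F + 1 := by
  rw [Projectivization.card_of_finrank F (Fin 3 → F) (n := 3) (by simp), Nat.card_eq_fintype_card]
  simp [Finset.sum_range_succ]
  ring

/-- The irreducible character of degree `q (q + 1)`. -/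
theorem exists_irr : ∃ χ : IrrCharacter (ProjectiveSpecialLinearGroup (Fin 3) F),
    (χ : ProjectiveSpecialLinearGroup (Fin 3) F → ℂ) 1 = ((Fintype.card F * (Fintype.card F + 1) : ℕ) : ℂ) := by
  have h2 := two_pre (F := F) (n := 3)
  have htr : IsPretransitive (ProjectiveSpecialLinearGroup (Fin 3) F) (ℙ F (Fin 3 → F)) :=
    MulAction.isPretransitive_of_is_two_pretransitive
  have hc := card_proj (F := F)
  refine ⟨⟨_, (Cfsg.Agent.S0157.result (G := ProjectiveSpecialLinearGroup (Fin 3) F)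
    (ℙ F (Fin 3 → F)) (by rw [hc]; have := Fintype.card_pos (α := F); nlinarith)).2 h2⟩, ?_⟩
  change ((Nat.card (fixedBy (ℙ F (Fin 3 → F)) (1 : ProjectiveSpecialLinearGroup (Fin 3) F)) : ℂ) - 1) = _
  have h3 : fixedBy (ℙ F (Fin 3 → F)) (1 : ProjectiveSpecialLinearGroup (Fin 3) F) = Set.univ := by
    ext i
    simp
  rw [h3, Nat.card_univ, hc]
  push_cast
  ring

end two

section dz

variable {F : Type v} [Field F] [Fintype F]

/-- `gcd * |PSL(3, q)| = (q + 1) * (q ^ 3 * ((q - 1) * (q ^ 3 - 1)))`. -/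
theorem card_mul : Nat.gcd 3 (Fintype.card F - 1) * Nat.card (ProjectiveSpecialLinearGroup (Fin 3) F) =
    (Fintype.card F + 1) * (Fintype.card F ^ 3 * ((Fintype.card F - 1) * (Fintype.card F ^ 3 - 1))) := by
  have h1 := Cfsg.Agent.S0243.result (F := F) rfl 3 (by norm_num)
  have hq : 1 < Fintype.card F := Fintype.one_lt_card
  generalize hn : Nat.card (ProjectiveSpecialLinearGroup (Fin 3) F) = N at h1 ⊢
  generalize hc : Fintype.card F = q at hq h1 ⊢
  clear hn hc
  obtain ⟨k, rfl⟩ : ∃ k, q = k + 1 := ⟨q - 1, by omega⟩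
  rw [Fin.prod_univ_three] at h1
  simp only [Fin.val_zero, Fin.val_one, Fin.val_two, pow_zero, pow_one, Nat.add_sub_cancel] at h1 ⊢
  have e0 : (k + 1) ^ 3 - 1 = k * (k ^ 2 + 3 * k + 3) := by
    have : (k + 1) ^ 3 = k * (k ^ 2 + 3 * k + 3) + 1 := by ring
    omega
  have e1 : (k + 1) ^ 3 - (k + 1) = k * ((k + 1) * (k + 2)) := by
    have : (k + 1) ^ 3 = k * ((k + 1) * (k + 2)) + (k + 1) := by ring
    omega
  have e2 : (k + 1) ^ 3 - (k + 1) ^ 2 = k * (k + 1) ^ 2 := by
    have : (k + 1) ^ 3 = k * (k + 1) ^ 2 + (k + 1) ^ 2 := by ring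
    omega
  rw [e0, e1, e2] at h1
  rw [e0]
  have hk : 0 < k := by omega
  apply Nat.eq_of_mul_eq_mul_left hk
  calc k * (Nat.gcd 3 k * N) = Nat.gcd 3 k * (k * N) := by ring
    _ = _ := h1
    _ = _ := by ring

/-- primes dividing `q + 1`, `q` even, divide no other factor of the order -/
theorem not_dvd_aux {q r : ℕ} (hq : Even q) (hq1 : 1 < q) (hr : r.Prime) (hd : r ∣ q + 1) :
    ¬ r ∣ q ^ 3 * ((q - 1) * (q ^ 3 - 1)) := by
  have h2 : ¬ r ∣ 2 := by
    intro h
    have : r = 2 := (Nat.prime_dvd_prime_iff_eq hr Nat.prime_two).1 h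
    subst this
    obtain ⟨m, rfl⟩ := hq
    omega
  have h1 : ¬ r ∣ q := by
    intro h
    have := (Nat.dvd_add_right h).1 hd
    exact hr.one_lt.ne' (Nat.dvd_one.1 this)
  have h3 : ¬ r ∣ q - 1 := by
    intro h
    apply h2
    have h4 : q + 1 = (q - 1) + 2 := by omega
    rw [h4] at hd
    exact (Nat.dvd_add_right h).1 hd
  have h5 : ¬ r ∣ q ^ 3 - 1 := by
    intro h
    have h6 : q ^ 3 + 1 = (q + 1) * (q ^ 2 - q + 1) := by
      have hqq : q ≤ q ^ 2 := by nlinarith
      zify [hqq]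
      ring
    have h7 : r ∣ q ^ 3 + 1 := by rw [h6]; exact hd.mul_right _
    have hpos : 0 < q ^ 3 := by positivity
    have h8 : q ^ 3 + 1 = (q ^ 3 - 1) + 2 := by omega
    rw [h8] at h7
    exact h2 ((Nat.dvd_add_right h).1 h7)
  intro h
  rcases (hr.dvd_mul).1 h with h | h
  · exact h1 (hr.dvd_of_dvd_pow h)
  · rcases (hr.dvd_mul).1 h with h | h
    · exact h3 h
    · exact h5 h

/-- Characters of defect zero for the primes dividing `q + 1`. -/
theorem hasDZ (hq : Even (Fintype.card F)) {r : ℕ} (hr : r.Prime) (hd : r ∣ Fintype.card F + 1) :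
    HasDZ r (ProjectiveSpecialLinearGroup (Fin 3) F) := by
  obtain ⟨χ, hχ⟩ := exists_irr (F := F)
  have hq1 : 1 < Fintype.card F := Fintype.one_lt_card
  have h1 := card_mul (F := F)
  have h2 := not_dvd_aux hq hq1 hr hd
  have hdeg : Cfsg.charDegree (χ : ProjectiveSpecialLinearGroup (Fin 3) F → ℂ) =
      Fintype.card F * (Fintype.card F + 1) := Cfsg.Agent.Blocks.Basic.charDegree_of_eq hχ
  refine ⟨χ, ?_⟩
  rw [hdeg]
  have h3 : ¬ r ∣ Fintype.card F := fun h => h2 ((dvd_pow h (by norm_num)).mul_right _)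
  have h4 : ¬ r ∣ Nat.gcd 3 (Fintype.card F - 1) := fun h =>
    h2 (((h.trans (Nat.gcd_dvd_right _ _)).mul_right _).mul_left _)
  have hg0 : Nat.gcd 3 (Fintype.card F - 1) ≠ 0 := fun h => h4 (by rw [h]; exact dvd_zero r)
  have hM0 : Fintype.card F ^ 3 * ((Fintype.card F - 1) * (Fintype.card F ^ 3 - 1)) ≠ 0 :=
    fun h => h2 (by rw [h]; exact dvd_zero r)
  have h5 : (Nat.gcd 3 (Fintype.card F - 1) *
      Nat.card (ProjectiveSpecialLinearGroup (Fin 3) F)).factorization r =
      ((Fintype.card F + 1) * (Fintype.card F ^ 3 * ((Fintype.card F - 1) *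
        (Fintype.card F ^ 3 - 1)))).factorization r := by rw [h1]
  rw [Nat.factorization_mul hg0 Nat.card_pos.ne', Nat.factorization_mul (by omega) hM0] at h5
  rw [Nat.factorization_mul (by omega) (by omega)]
  simp only [Finsupp.add_apply, Nat.factorization_eq_zero_of_not_dvd h4,
    Nat.factorization_eq_zero_of_not_dvd h2, Nat.factorization_eq_zero_of_not_dvd h3] at h5 ⊢
  omega

end dz

section elt

variable {F : Type v} [Field F]

/-- the matrix `diag(a g, b)` -/
def mx (g : Matrix (Fin 2) (Fin 2) F) (a b : F) : Matrix (Fin 3) (Fin 3) F :=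
  !![a * g 0 0, a * g 0 1, 0; a * g 1 0, a * g 1 1, 0; 0, 0, b]

theorem mx_mul (g h : Matrix (Fin 2) (Fin 2) F) (a b c d : F) :
    mx (g * h) (a * c) (b * d) = mx g a b * mx h c d := by
  ext i j
  fin_cases i <;> fin_cases j <;>
    simp [mx, Matrix.mul_apply, Fin.sum_univ_succ] <;> ring

theorem mx_one : mx (1 : Matrix (Fin 2) (Fin 2) F) 1 1 = 1 := by
  ext i j
  fin_cases i <;> fin_cases j <;> simp [mx]

theorem det_mx (g : Matrix (Fin 2) (Fin 2) F) (a b : F) : (mx g a b).det = a * a * b * g.det := by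
  rw [det_fin_two, det_fin_three]
  simp [mx]
  ring

/-- `(g, a) ↦ diag(a g, a⁻²)` -/
def phi : SpecialLinearGroup (Fin 2) F × Fˣ →* SpecialLinearGroup (Fin 3) F where
  toFun x := ⟨mx x.1.1 x.2 ((x.2⁻¹ * x.2⁻¹ : Fˣ) : F), by
    have ha : (x.2 : F) * ((x.2⁻¹ : Fˣ) : F) = 1 := by simp
    rw [det_mx, x.1.2, Units.val_mul]
    linear_combination ((x.2 : F) * ((x.2⁻¹ : Fˣ) : F) + 1) * ha⟩
  map_one' := by
    apply Subtype.ext
    change mx (1 : Matrix (Fin 2) (Fin 2) F) ((1 : Fˣ) : F) (((1 : Fˣ)⁻¹ * (1 : Fˣ)⁻¹ : Fˣ) : F) = 1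
    simp [mx_one]
  map_mul' x y := by
    apply Subtype.ext
    change mx (x.1.1 * y.1.1) ((x.2 * y.2 : Fˣ) : F) (((x.2 * y.2)⁻¹ * (x.2 * y.2)⁻¹ : Fˣ) : F) =
      mx x.1.1 x.2 ((x.2⁻¹ * x.2⁻¹ : Fˣ) : F) * mx y.1.1 y.2 ((y.2⁻¹ * y.2⁻¹ : Fˣ) : F)
    rw [← mx_mul]
    congr 1
    simp
    ring

theorem coe_phi (x : SpecialLinearGroup (Fin 2) F × Fˣ) :
    (phi x : Matrix (Fin 3) (Fin 3) F) = mx x.1.1 x.2 ((x.2⁻¹ * x.2⁻¹ : Fˣ) : F) := rfl

/-- `(g, a)` maps into the centre only if `g` is a scalar and `a³` is determined. -/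
theorem of_mem_center [CharP F 2] {x : SpecialLinearGroup (Fin 2) F × Fˣ}
    (h : phi x ∈ Subgroup.center (SpecialLinearGroup (Fin 3) F)) : x.1 = 1 ∧ x.2 ^ 3 = 1 := by
  obtain ⟨r, -, hr⟩ := (Matrix.SpecialLinearGroup.mem_center_iff).1 h
  rw [coe_phi] at hr
  have h00 := congrFun (congrFun hr 0) 0
  have h01 := congrFun (congrFun hr 0) 1
  have h10 := congrFun (congrFun hr 1) 0
  have h11 := congrFun (congrFun hr 1) 1
  have h22 := congrFun (congrFun hr 2) 2
  simp [mx] at h00 h01 h10 h11 h22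
  have ha : (x.2 : F) ≠ 0 := x.2.ne_zero
  have hdet := x.1.2
  rw [det_fin_two] at hdet
  have e1 : x.1.1 0 0 = x.1.1 1 1 := by
    apply mul_left_cancel₀ ha
    rw [← h00, ← h11]
  have e2 : x.1.1 0 0 * x.1.1 0 0 = 1 := by
    have : x.1.1 0 1 = 0 := h01
    rw [this, zero_mul, sub_zero, ← e1] at hdet
    exact hdet
  have e3 : x.1.1 0 0 = 1 := by
    rcases mul_self_eq_one_iff.1 e2 with h | h
    · exact h
    · rw [h]
      exact CharTwo.neg_eq 1
  constructor
  · apply Subtype.ext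
    ext i j
    fin_cases i <;> fin_cases j
    · simpa using e3
    · simpa using h01
    · simpa using h10
    · simpa using (e1.symm.trans e3)
  · apply Units.ext
    have h5 : r = x.2 := by rw [h00]; change (x.2 : F) * x.1.1 0 0 = _; rw [e3, mul_one]
    rw [h5] at h22
    have h6 : (x.2 : F) * (x.2 : F) * (x.2 : F) = 1 := by
      nth_rewrite 1 [h22]
      field_simp
    rw [Units.val_pow_eq_pow_val, Units.val_one]
    rw [← h6]
    ring

end elt

section row

variable {F : Type v} [Field F] [Fintype F] [CharP F 2]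

/-- an element of order divisible by `q + 1` and not equal to it -/
theorem exists_elt (h8 : 8 ≤ Fintype.card F) : ∃ y : ProjectiveSpecialLinearGroup (Fin 3) F,
    Fintype.card F + 1 ∣ orderOf y ∧ orderOf y ≠ Fintype.card F + 1 := by
  classical
  obtain ⟨f⟩ := WeakTI.PslTwo.nonempty_equiv (F := F)
  obtain ⟨g, hg⟩ := L2Even.exists_order f (by omega)
  obtain ⟨a, ha⟩ := IsCyclic.exists_generator (α := Fˣ)
  have ha' : orderOf a = Fintype.card F - 1 := by
    rw [orderOf_eq_card_of_forall_mem_zpowers ha, Nat.card_eq_fintype_card, Fintype.card_units]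
  set y : ProjectiveSpecialLinearGroup (Fin 3) F := QuotientGroup.mk (phi (g, a)) with hy
  have key : ∀ k : ℕ, y ^ k = 1 → Fintype.card F + 1 ∣ k ∧ Fintype.card F - 1 ∣ 3 * k := by
    intro k hk
    rw [hy, ← QuotientGroup.mk_pow, ← map_pow, QuotientGroup.eq_one_iff] at hk
    obtain ⟨h1, h2⟩ := of_mem_center hk
    constructor
    · rw [← hg]
      exact orderOf_dvd_of_pow_eq_one h1
    · rw [← ha']
      apply orderOf_dvd_of_pow_eq_one
      have h3 : (a ^ k) ^ 3 = 1 := h2
      rw [mul_comm, pow_mul]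
      exact h3
  obtain ⟨h1, h2⟩ := key _ (pow_orderOf_eq_one y)
  refine ⟨y, h1, fun h => ?_⟩
  rw [h] at h2
  have h3 : Nat.Coprime (Fintype.card F - 1) (Fintype.card F + 1) := by
    obtain ⟨r, hr⟩ := L2Even.card_even (F := F)
    have h4 : Fintype.card F + 1 = (Fintype.card F - 1) + 2 := by omega
    rw [h4, Nat.coprime_self_add_right, Nat.coprime_two_right]
    exact ⟨r - 1, by omega⟩
  have h5 : Fintype.card F - 1 ∣ 3 := h3.dvd_of_dvd_mul_right h2
  have := Nat.le_of_dvd (by norm_num) h5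
  omega

/-- **The row of `PSL(3, q)`**, `q ≥ 8` even. -/
theorem row_psl3_even (h8 : 8 ≤ Fintype.card F) :
    Row.{w, v} (ProjectiveSpecialLinearGroup (Fin 3) F) := by
  obtain ⟨y, hy, hy'⟩ := exists_elt h8
  have hq := L2Even.card_even (F := F)
  obtain ⟨r, hr, hd⟩ := Nat.exists_prime_and_dvd (n := Fintype.card F + 1) (by omega)
  have : Fact r.Prime := ⟨hr⟩
  refine Row.of_dz (p := r) ?_ (hasDZ hq hr hd) (hd.trans hy) ?_
  · rintro rfl
    obtain ⟨m, hm⟩ := hq
    omega
  · intro h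
    have h1 : Fintype.card F + 1 = r := by
      rw [h] at hy
      rcases (Nat.dvd_prime hr).1 hy with h2 | h2
      · omega
      · exact h2
    exact hy' (by rw [h, h1])

end row

end Cfsg.Agent.H723.L3Even
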