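import Mathlib
import Cfsg.Prelude.Def_LieTypeChar
import Cfsg.Agent.H723.Kill
import Cfsg.Agent.H163.Steinberg
import Cfsg.Agent.Mrg.Omega.ML.LieRow.Lie

/-!
# S4983 for the groups of Lie type in characteristic two
-/

set_option autoImplicit false

namespace Cfsg.Agent.H723.LieTwo

open Cfsg Cfsg.Agent.H723.Red Cfsg.Agent.H723.Kill

universe u

variable {G : Type u} [Group G] [Finite G] [IsSimpleGroup G]

theorem not_oneZero (hna : ¬ IsMulCommutative G) (h2 : 2 ∣ Nat.card G) (h : IsLieTypeChar 2 G) :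
    ¬ OneZero G := by
  have : Fact (Nat.Prime 2) := ⟨Nat.prime_two⟩
  exact kill_two hna h2 (zs_of_steinberg (H163.Steinberg.exists_irr_of_hasSplit
    (Omega.ML.LieRow.hasSplit_of_lie h)))

end Cfsg.Agent.H723.LieTwo
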